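import Cfsg.Agent.Blocks.Cyclic.Isometry
import Cfsg.Agent.Blocks.Defect.SubgroupTransport

/-!
# The correspondent of a block with cyclic defect group in the normalizer of a subgroup of order `p`
-/

set_option autoImplicit false
open scoped MonoidAlgebra ComplexConjugate Classical
open Cfsg CfsgLib CfsgLib.Blocks CfsgLib.Blocks.HeightZero CfsgLib.Blocks.Contrib
open CfsgLib.Blocks.AbelianFree CfsgLib.Blocks.AbelianFrobenius

namespace CfsgLib.Blocks.Cyclic

universe u

variable {G : Type u} [Group G] [Fintype G]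

/-- A cyclic group has at most one subgroup of each order. -/
theorem eq_of_le_cyclic {P S T : Subgroup G} (hP : IsCyclic P) (hS : S ≤ P) (hT : T ≤ P)
    (h : Nat.card S = Nat.card T) : S = T := by
  haveI := Fintype.ofFinite P
  haveI := hP
  set R := Finset.univ.filter fun x : P => x ^ Nat.card S = 1 with hR
  have key : ∀ U : Subgroup G, U ≤ P → Nat.card U = Nat.card S →
      (Finset.univ.filter fun x : P => (x : G) ∈ U) = R := by
    intro U hU hc
    refine Finset.eq_of_subset_of_card_le (fun x hx => ?_) ?_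
    · rw [Finset.mem_filter] at hx
      rw [hR, Finset.mem_filter, ← hc]
      refine ⟨Finset.mem_univ _, Subtype.ext ?_⟩
      have h1 : (⟨(x : G), hx.2⟩ : U) ^ Nat.card U = 1 := pow_card_eq_one'
      have h2 := congrArg Subtype.val h1
      rw [SubmonoidClass.coe_pow, OneMemClass.coe_one] at h2 ⊢
      exact h2
    · refine (IsCyclic.card_pow_eq_one_le (α := P) (n := Nat.card S) Nat.card_pos).trans ?_
      rw [← hc, ← Nat.card_congr (Subgroup.subgroupOfEquivOfLe hU).toEquiv, Nat.card_eq_fintype_card]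
      refine le_of_eq ?_
      rw [Fintype.card_subtype]
      congr 1
  ext g
  constructor <;> intro hg
  · have h1 : (⟨g, hS hg⟩ : P) ∈ Finset.univ.filter fun x : P => (x : G) ∈ S :=
      Finset.mem_filter.2 ⟨Finset.mem_univ _, hg⟩
    rw [key S hS rfl, ← key T hT h.symm] at h1
    exact (Finset.mem_filter.1 h1).2
  · have h1 : (⟨g, hT hg⟩ : P) ∈ Finset.univ.filter fun x : P => (x : G) ∈ T :=
      Finset.mem_filter.2 ⟨Finset.mem_univ _, hg⟩
    rw [key T hT h.symm, ← key S hS rfl] at h1
    exact (Finset.mem_filter.1 h1).2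

/-- The normalizer of a cyclic group normalizes each of its subgroups. -/
theorem normalizer_le_of_cyclic {P Z : Subgroup G} (hP : IsCyclic P) (hZ : Z ≤ P) :
    Subgroup.normalizer (P : Set G) ≤ Subgroup.normalizer (Z : Set G) := by
  intro n hn
  have hPn : P.map (MulAut.conj n).toMonoidHom = P := map_conj_eq_self_of_mem_normalizer hn
  have hle : Z.map (MulAut.conj n).toMonoidHom ≤ P := (Subgroup.map_mono hZ).trans hPn.le
  have h : Z.map (MulAut.conj n).toMonoidHom = Z := eq_of_le_cyclic hP hle hZ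
    (Subgroup.card_map_of_injective (MulAut.conj n).injective)
  exact mem_normalizer_of_map_conj_le h.le

variable {p : ℕ} [Fact p.Prime] {M : Ideal AlgInt} [M.IsMaximal] [CharP (kres M) p]
  {B : Set (IrrCharacter G)} {P : Subgroup G}

/-- The setting at a maximal pair, with the rank. -/
theorem setting_of_isBlockIdem (hM : IsPModular p M) (hB : IsPBlock M B)
    (hPD : IsDefectGroup p M B P) (hP1 : P ≠ ⊥) (hcyc : IsCyclic P) {g : MonoidAlgebra (kres M) G}
    (hg : IsBlockIdem (Subgroup.centralizer (P : Set G)) g) (hover : BrOver P g (topEl M B)) :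
    Setting p M B P g ∧ blockRank p B = Nat.card (aut P g) := by
  have hp : IsPGroup p P := ((isDefectGroup_topEl_iff (p := p) hB P).1 hPD).2.1
  obtain ⟨c, hc, rfl⟩ := exists_subEl_eq hg
  have hind : IsInducedBlock M (Subgroup.centralizer (P : Set G)) c B :=
    (isInducedBlock_iff_brOver hM hp (le_centralizer_of_le hcyc le_rfl) le_rfl
      (Subgroup.centralizer_le_normalizer _) hc hB).2 hover
  obtain ⟨h, -, -⟩ := setting_of_cyclic hM hB hPD hP1 hcyc hind
    (T := pairStab ⊤ P (subEl M (Subgroup.centralizer (P : Set G)) c)) fun t => by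
      rw [mem_pairStab, stabilizesBlock_iff hc]
      exact ⟨fun ht => ⟨ht.1.2, normalizer_le_normalizer_centralizer P ht.1.2, ht.2⟩,
        fun ht => ⟨⟨trivial, ht.1⟩, ht.2.2⟩⟩
  exact ⟨h, blockRank_eq hM hB hPD hP1 hcyc hind h⟩

/-- The correspondent has the same numbers of characters and is perfectly isometric. -/
theorem exists_isometry_correspondent (hM : IsPModular p M) (hB : IsPBlock M B)
    (hPD : IsDefectGroup p M B P) (hP1 : P ≠ ⊥) (hcyc : IsCyclic P) {Z H : Subgroup G}
    (hZ : Z ≤ P) (hH : H = Subgroup.normalizer (Z : Set G)) {c : Set (IrrCharacter H)}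
    (hcD : IsDefectGroup p M c (P.subgroupOf H)) (hc : IsInducedBlock M H c B) :
    Nat.card c = Nat.card B ∧ blockRank p c = blockRank p B ∧
      ∃ (I : IrrCharacter H → IrrCharacter G) (ε : IrrCharacter H → ℤ),
        IsPerfectIsometry p M c B I ε := by
  haveI := Fintype.ofFinite H
  have hNH : Subgroup.normalizer (P : Set G) ≤ H := hH ▸ normalizer_le_of_cyclic hcyc hZ
  have hPH : P ≤ H := Subgroup.le_normalizer.trans hNH
  have hCH : Subgroup.centralizer (P : Set G) ≤ H :=
    (Subgroup.centralizer_le_normalizer _).trans hNH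
  have hCZ : Subgroup.centralizer (Z : Set G) ≤ H := hH ▸ Subgroup.centralizer_le_normalizer _
  have hp : IsPGroup p P := ((isDefectGroup_topEl_iff (p := p) hB P).1 hPD).2.1
  set P' := P.subgroupOf H with hP'
  have hinj := H.subtype_injective
  have hmap : P'.map H.subtype = P := Subgroup.map_subgroupOf_eq_of_le hPH
  let φ : P' ≃* P := Subgroup.subgroupOfEquivOfLe hPH
  have hcyc' : IsCyclic P' := isCyclic_of_surjective φ.symm φ.symm.surjective
  have hP'1 : P' ≠ ⊥ := fun e => hP1 (by rw [← hmap, e, Subgroup.map_bot])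
  obtain ⟨g', hmax'⟩ := KleinFour.exists_maxPair (M := M) hc.1 hcD
  have hCmap : (Subgroup.centralizer (P' : Set H)).map H.subtype =
      Subgroup.centralizer (P : Set G) := by
    rw [map_centralizer_eq hinj, hmap, Subgroup.range_subtype, inf_eq_right.2 hCH]
  obtain ⟨g, hg⟩ : ∃ g, g = emb (kres M) H.subtype g' := ⟨_, rfl⟩
  have hgb' : IsBlockIdem (Subgroup.centralizer (P' : Set H)) g' := by
    have h := hmax'.1.1.2.2
    rwa [top_inf_eq] at h
  have hgb : IsBlockIdem (Subgroup.centralizer (P : Set G)) g := by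
    obtain ⟨d, hd, hdg⟩ := exists_subEl_eq (M := M) hgb'
    have := isBlockIdem_blockEl (M := M) (f := H.subtype.comp (Subgroup.centralizer
      (P' : Set H)).subtype) (hinj.comp (Subgroup.subtype_injective _)) hd
    rw [blockEl_eq_emb_subEl (φ := H.subtype), hdg, ← hg, MonoidHom.range_comp,
      Subgroup.range_subtype, hCmap] at this
    exact this
  have hover : BrOver P g (topEl M B) := by
    have hbc : IsBlockIdem H (subEl M H c) := isBlockIdem_subEl hc.1
    have hE := isBlockIdem_topEl (M := M) hB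
    have h1 := congrArg (emb (kres M) H.subtype) (hmax'.1.2 : brTrunc P' (topEl M c) * g' = g')
    rw [map_mul, emb_brTrunc hinj, hmap, ← hg, ← blockEl_eq_emb_topEl] at h1
    change brTrunc P (subEl M H c) * g = g at h1
    have h2 : brTrunc Z (topEl M B) * subEl M H c = subEl M H c :=
      (isInducedBlock_iff_brOver hM (hp.to_le hZ) (hZ.trans hPH) hCZ hH.le hc.1 hB).1 hc
    have h3 := congrArg (brTrunc P) h2
    rw [brTrunc_mul hp (((hE.mem.2).mono le_top).brTrunc
      (Subgroup.le_normalizer.trans (normalizer_le_of_cyclic hcyc hZ)))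
      (hbc.mem.2.mono hPH), brTrunc_brTrunc hZ] at h3
    show brTrunc P (topEl M B) * g = g
    conv_lhs => rw [← h1, ← mul_assoc, h3]
    exact h1
  obtain ⟨hS, hl⟩ := setting_of_isBlockIdem hM hB hPD hP1 hcyc hgb hover
  obtain ⟨hS', hl'⟩ := setting_of_isBlockIdem hM hc.1 hcD hP'1 hcyc' hgb' hmax'.1.2
  have hiff : ∀ n : H, n ∈ pairStab ⊤ P' g' ↔ (n : G) ∈ pairStab ⊤ P g := by
    intro n
    rw [mem_pairStab, mem_pairStab]
    have hn : n ∈ Subgroup.normalizer (P' : Set H) ↔ (n : G) ∈ Subgroup.normalizer (P : Set G) := by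
      rw [Subgroup.mem_normalizer_iff, Subgroup.mem_normalizer_iff]
      refine ⟨fun h y => ⟨fun hy => (h ⟨y, hPH hy⟩).1 hy, fun hy => ?_⟩,
        fun h y => h (y : G)⟩
      have hyH : y ∈ H := by
        have h2 := H.mul_mem (H.mul_mem (H.inv_mem n.2) (hPH hy)) n.2
        rwa [show (n : G)⁻¹ * ((n : G) * y * (n : G)⁻¹) * (n : G) = y by group] at h2
      exact (h ⟨y, hyH⟩).2 hy
    have hconj : Blocks.conjA (n : G) g = g ↔ Blocks.conjA n g' = g' := by
      rw [hg, show (n : G) = H.subtype n from rfl, ← emb_conjA, (emb_injective hinj).eq_iff]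
    exact ⟨fun h => ⟨⟨trivial, hn.1 h.1.2⟩, hconj.2 h.2⟩,
      fun h => ⟨⟨trivial, hn.2 h.1.2⟩, hconj.1 h.2⟩⟩
  have hφ : ∀ a, a ∈ aut P' g' ↔ MulAut.congr φ a ∈ aut P g := by
    intro a
    constructor
    · intro ha
      obtain ⟨t, ht, hat⟩ := mem_aut.1 ha
      exact mem_aut.2 ⟨t, (hiff t).1 ht, fun v => congrArg Subtype.val (hat (φ.symm v))⟩
    · intro ha
      obtain ⟨t, ht, hat⟩ := mem_aut.1 ha
      have htH : t ∈ H := hNH (pairStab_le_normalizer _ _ _ ht)
      refine mem_aut.2 ⟨⟨t, htH⟩, (hiff ⟨t, htH⟩).2 ht, fun v => Subtype.ext ?_⟩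
      exact hat (φ v)
  obtain ⟨X, r, δ, ζ, hN⟩ := exists_normalForm hS hP1 hl
  obtain ⟨X', r', δ', ζ', hN'⟩ := exists_normalForm hS' hP'1 hl'
  obtain ⟨I, ε, hI, -⟩ := exists_perfectIsometry hS hS' hN hN' φ hφ
  refine ⟨Nat.card_congr (hI.1.equiv _), ?_, I, ε, hI⟩
  rw [hl, hl']
  exact Nat.card_congr ((MulAut.congr φ).toEquiv.subtypeEquiv hφ)

end CfsgLib.Blocks.Cyclic
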