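import Cfsg.Agent.Blocks.Cyclic.Vanish
import Cfsg.Agent.Blocks.KleinFour.Isometry.Columns
import Cfsg.Agent.Eq.Def_BlockLocal

/-!
# Perfect isometries from the singular scalars

A signed bijection of two blocks with defect groups of the same order is perfect if its kernel,
taken in the singular scalars of the two blocks, is divisible by the order of the defect group, and
vanishes when one side is taken in the scalars and the other on the regular elements.
-/

set_option autoImplicit false
open scoped MonoidAlgebra ComplexConjugate Classical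
open Cfsg CfsgLib CfsgLib.Blocks CfsgLib.Blocks.HeightZero CfsgLib.Blocks.Contrib
open CfsgLib.Blocks.AbelianFree

namespace CfsgLib.Blocks.Cyclic

universe u v

section

variable {G : Type u} [Group G] [Fintype G] {p : ℕ} [Fact p.Prime] {M : Ideal AlgInt} [M.IsMaximal]
  [CharP (kres M) p] {B : Set (IrrCharacter G)} {P : Subgroup G} {f : MonoidAlgebra (kres M) G}

/-- The value of a combination at a singular element lies wherever all its sections lie. -/
theorem comb_singular_mem (h : Setting p M B P f) {Q : ℂ → Prop} (h0 : Q 0)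
    (hadd : ∀ z w, Q z → Q w → Q (z + w)) (a : IrrCharacter G → ℂ) {g : G}
    (ha : ∀ v : P, v ≠ 1 → ∀ s : cn (Subgroup.zpowers (v : G)), IsPRegular p s →
      (∃ t : G, t * ((v : G) * (s : G)) * t⁻¹ = g) →
      Q (eps p P f (Subgroup.zpowers (v : G)) *
        (∑ χ ∈ B.toFinite.toFinset, a χ * gval p P f χ v) *
        rep p P f (Subgroup.zpowers (v : G)) s))
    (hg : ¬ IsPRegular p g) :
    Q (∑ χ ∈ B.toFinite.toFinset, a χ * (χ : G → ℂ) g) := by
  obtain ⟨x, y, hxy, hcomm, hx, hy⟩ := exists_isPPart (G := G) h.hM.1 g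
  have hx1 : x ≠ 1 := fun e => hg (by rw [← hxy, e, one_mul]; exact hy)
  set F : G → ℂ := fun g => ∑ χ ∈ B.toFinite.toFinset, a χ * (χ : G → ℂ) g with hF
  show Q (F g)
  set C := cn (Subgroup.zpowers x) with hC
  have hCx : C = Subgroup.centralizer ({x} : Set G) := centralizer_zpowers_eq x
  have hyC : y ∈ C := by
    rw [hCx, Subgroup.mem_centralizer_singleton_iff]
    exact hcomm.eq.symm
  set φ : C → ℂ := fun c => F (x * (c : G)) with hφ
  have hφc : IsClassFunction C φ := by
    intro c d
    simp only [hφ, hF]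
    exact Finset.sum_congr rfl fun χ _ => congrArg (a χ * ·) (isClassFunction_translate hCx χ c d)
  have hsum := congrFun (HeightCenter.sum_blockPart (M := M) hφc) ⟨y, hyC⟩
  rw [Finset.sum_apply] at hsum
  have hreg : IsPRegular p (⟨y, hyC⟩ : C) := by
    rw [IsPRegular, Subgroup.orderOf_mk]; exact hy
  rw [← hxy]
  show Q (φ ⟨y, hyC⟩)
  rw [← hsum]
  refine Finset.sum_induction _ Q hadd h0 fun β hβ => ?_
  have hβ' := (Finset.mem_filter.1 hβ).2
  by_cases hind : IsInducedBlock M C β B
  · obtain ⟨⟨⟨v, t⟩, hv, hsub⟩, -⟩ := h.exists_subsec hx hx1 hind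
    rw [subsec, Prod.mk.injEq] at hsub
    obtain ⟨hvx, hsub⟩ := hsub
    set S := Subgroup.zpowers (v : G) with hS
    have hmap : (cn S).map (MulAut.conj t).toMonoidHom = C := by
      rw [map_cn, MonoidHom.map_zpowers, hC]
      exact congrArg (fun z => cn (Subgroup.zpowers z)) hvx
    have hSP := h.zpowers_le v
    have hb : mapBlock (conjIso _ _ t hmap) (bl p P f S) = β := by
      refine subEl_injective (M := M) (isPBlock_mapBlock _ (h.blk hSP)) hβ' ?_
      rw [subEl_mapBlock_conj]
      exact hsub
    obtain ⟨s, hs⟩ := (conjIso _ _ t hmap).surjective ⟨y, hyC⟩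
    have hsreg : IsPRegular p s := by
      rw [← hs, IsPRegular, MulEquiv.orderOf_eq] at hreg
      exact hreg
    rw [← hb, ← hs, HeightCenter.blockPart_mapBlock]
    have hfun : (fun k => φ (conjIso _ _ t hmap k)) = fun k : cn S => F ((v : G) * (k : G)) := by
      funext k
      simp only [hφ, hF, coe_conjIso]
      refine Finset.sum_congr rfl fun χ _ => ?_
      rw [← hvx, show t * (v : G) * t⁻¹ * (t * (k : G) * t⁻¹) = t * ((v : G) * k) * t⁻¹ by group,
        irrCharacter_conj]
    rw [hfun]
    have hFc : IsClassFunction (cn S) fun k : cn S => F ((v : G) * (k : G)) := by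
      intro c d
      simp only [hF]
      exact Finset.sum_congr rfl fun χ _ =>
        congrArg (a χ * ·) (isClassFunction_translate (centralizer_zpowers_eq (v : G)) χ c d)
    have h2 := h.part_eq_smul hSP (h.reg_zpowers hv) hFc hsreg
    rw [part] at h2
    rw [h2]
    have hp0 : pval p P f S v F =
        eps p P f S * ∑ χ ∈ B.toFinite.toFinset, a χ * gval p P f χ v := by
      rw [hF, pval_sum, Finset.mul_sum]
      refine Finset.sum_congr rfl fun χ _ => ?_
      rw [gval, if_neg hv, ← hS, mul_left_comm (a χ), ← mul_assoc, eps_mul_self, one_mul]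
    rw [hp0, hS]
    refine ha v hv s hsreg ⟨t, ?_⟩
    have hsy : t * (s : G) * t⁻¹ = y := by
      have h5 := congrArg Subtype.val hs
      rwa [coe_conjIso] at h5
    rw [← hxy, ← hvx, ← hsy]
    group
  · suffices e0 : blockPart β φ ⟨y, hyC⟩ = 0 by rw [e0]; exact h0
    rw [blockPart_apply_eq, Finset.sum_apply]
    have key : ∀ χ ∈ B.toFinite.toFinset,
        blockPart β (fun c : C => (χ : G → ℂ) (x * (c : G))) ⟨y, hyC⟩ = 0 := fun χ hχ =>
      blockPart_section_eq_zero h.hM hCx hx hβ' h.hB hind ((Set.Finite.mem_toFinset _).1 hχ) hreg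
    simp only [blockPart_apply_eq, Finset.sum_apply, Pi.smul_apply, smul_eq_mul] at key ⊢
    have hin : ∀ ξ : IrrCharacter C, classInner φ (ξ : C → ℂ) = ∑ χ ∈ B.toFinite.toFinset,
        a χ * classInner (fun c : C => (χ : G → ℂ) (x * (c : G))) (ξ : C → ℂ) := by
      intro ξ
      simp only [classInner, hφ, hF, Finset.sum_mul, Finset.mul_sum]
      rw [Finset.sum_comm]
      exact Finset.sum_congr rfl fun χ _ => Finset.sum_congr rfl fun c _ => by ring
    simp only [hin, Finset.sum_mul]
    rw [Finset.sum_comm]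
    refine Finset.sum_eq_zero fun χ hχ => ?_
    simp only [mul_assoc, ← Finset.mul_sum, key χ hχ, mul_zero]

omit [M.IsMaximal] [CharP (kres M) p] in
/-- The centralizer of an element is that of its regular part in the centralizer of its `p`-part. -/
theorem natCard_centralizer_section {x : G} {H : Subgroup G}
    (hH : H = Subgroup.centralizer ({x} : Set G)) (hu : ∃ e : ℕ, orderOf x = p ^ e) {s : H}
    (hs : IsPRegular p s) :
    Nat.card (Subgroup.centralizer ({x * (s : G)} : Set G)) =
      Nat.card (Subgroup.centralizer ({s} : Set H)) := by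
  subst hH
  obtain ⟨k, hk⟩ := exists_pow_eq_isPPart (G := G) (Fact.out : p.Prime)
  have hkx := hk _ _ (isPPart_mul_of_mem rfl hu hs)
  have hsx : (s : G) * x = x * s := Subgroup.mem_centralizer_singleton_iff.1 s.2
  have e : Subgroup.centralizer ({x * (s : G)} : Set G) =
      (Subgroup.centralizer ({s} : Set (Subgroup.centralizer ({x} : Set G)))).map
        (Subgroup.centralizer ({x} : Set G)).subtype := by
    ext g
    rw [Subgroup.mem_centralizer_singleton_iff, Subgroup.mem_map]
    constructor
    · intro hg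
      have hgx : g * x = x * g := by
        rw [← hkx]; exact ((show Commute g (x * (s : G)) from hg).pow_right k).eq
      have hgs : g * (s : G) = s * g := mul_left_cancel (a := x) (by
        rw [← mul_assoc, ← hgx, mul_assoc, hg, mul_assoc])
      exact ⟨⟨g, Subgroup.mem_centralizer_singleton_iff.2 hgx⟩,
        Subgroup.mem_centralizer_singleton_iff.2 (Subtype.ext hgs), rfl⟩
    · rintro ⟨y, hy, rfl⟩
      have h1 : (y : G) * x = x * y := Subgroup.mem_centralizer_singleton_iff.1 y.2
      have h2 : (y : G) * (s : G) = s * y :=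
        congrArg Subtype.val (Subgroup.mem_centralizer_singleton_iff.1 hy)
      show (y : G) * (x * s) = x * s * y
      rw [← mul_assoc, h1, mul_assoc, h2, mul_assoc]
  rw [e, Subgroup.card_map_of_injective
    (Subgroup.centralizer ({x} : Set G)).subtype_injective]

/-- The scalar function of a section is divisible by the centralizers. -/
theorem memLocalRing_rep_div (h : Setting p M B P f) {v : P} (hv : v ≠ 1)
    {s : cn (Subgroup.zpowers (v : G))} (hs : IsPRegular p s) :
    MemLocalRing M ((Nat.card P : ℂ) * rep p P f (Subgroup.zpowers (v : G)) s /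
      (Nat.card (Subgroup.centralizer ({(v : G) * (s : G)} : Set G)) : ℂ)) := by
  obtain ⟨S, hS⟩ : ∃ S, S = Subgroup.zpowers (v : G) := ⟨_, rfl⟩
  have hSP : S ≤ P := hS ▸ h.zpowers_le v
  have hReg : Reg p P f S := hS ▸ h.reg_zpowers hv
  subst hS
  obtain ⟨θ, hθ, hrep⟩ := h.exists_rep hSP
  set Φ : cn (Subgroup.zpowers (v : G)) → ℂ := fun x => if IsPRegular p x then (Nat.card P : ℂ) * rep p P f (Subgroup.zpowers (v : G)) x else 0 with hΦ
  have hΦs : Φ s = (Nat.card P : ℂ) * rep p P f (Subgroup.zpowers (v : G)) s := if_pos hs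
  rw [natCard_centralizer_section (centralizer_zpowers_eq (v : G)) (h.orderOf_coe_pow v) hs, ← hΦs]
  refine KleinFour.memLocalRing_div_centralizer h.hM (f := Φ) (fun x k => ?_) (fun x hx => if_neg hx)
    (fun ξ => ?_) s
  · simp only [hΦ, isPRegular_conj_iff, hrep, Chars.isClassFunction_coe θ x k]
  have hinner : classInner Φ (ξ : cn (Subgroup.zpowers (v : G)) → ℂ) = (Nat.card P : ℂ) / (Nat.card (cn (Subgroup.zpowers (v : G))) : ℂ) *
      ∑ x ∈ regSet p (cn (Subgroup.zpowers (v : G))), rep p P f (Subgroup.zpowers (v : G)) x * conj ((ξ : cn (Subgroup.zpowers (v : G)) → ℂ) x) := by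
    simp only [classInner, hΦ, Finset.mul_sum, regSet, Finset.sum_filter]
    refine Finset.sum_congr rfl fun x _ => ?_
    split_ifs <;> ring
  rw [hinner]
  by_cases hξ : ξ ∈ bl p P f (Subgroup.zpowers (v : G))
  · have h1 : ∑ x ∈ regSet p (cn (Subgroup.zpowers (v : G))), rep p P f (Subgroup.zpowers (v : G)) x * conj ((ξ : cn (Subgroup.zpowers (v : G)) → ℂ) x) =
        ((regSq p (rep p P f (Subgroup.zpowers (v : G))) : ℝ) : ℂ) := by
      rw [regSq_eq, Complex.ofReal_sum]
      exact Finset.sum_congr rfl fun x hx => by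
        rw [hReg.eq_reg ξ hξ x (mem_regSet.1 hx), Complex.mul_conj', Complex.ofReal_pow]
    have hn := congrArg (fun r : ℝ => (r : ℂ)) hReg.norm
    push_cast at hn
    have hC : (Nat.card (cn (Subgroup.zpowers (v : G))) : ℂ) ≠ 0 := Nat.cast_ne_zero.2 Nat.card_pos.ne'
    have h2 : (Nat.card P : ℂ) / (Nat.card (cn (Subgroup.zpowers (v : G))) : ℂ) * ((regSq p (rep p P f (Subgroup.zpowers (v : G))) : ℝ) : ℂ) = 1 := by
      field_simp
      linear_combination hn
    rw [h1, h2]
    exact (localRing M).one_mem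
  · have h1 := classInner_pRegularPart_eq_zero h.hM (h.blk hSP) hθ hξ
    rw [classInner, mul_eq_zero] at h1
    have h2 := congrArg conj (h1.resolve_left (inv_ne_zero (Nat.cast_ne_zero.2 Nat.card_pos.ne')))
    have h3 : ∑ x ∈ regSet p (cn (Subgroup.zpowers (v : G))), rep p P f (Subgroup.zpowers (v : G)) x * conj ((ξ : cn (Subgroup.zpowers (v : G)) → ℂ) x) = 0 := by
      rw [map_zero, map_sum] at h2
      rw [← h2, regSet, Finset.sum_filter]
      refine Finset.sum_congr rfl fun x _ => ?_
      simp only [pRegularPart, hrep]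
      split_ifs <;> simp [mul_comm]
    rw [h3, mul_zero]
    exact (localRing M).zero_mem

/-- A member of the local ring times the scalar function of a section. -/
theorem memLocalRing_eps_mul_rep (h : Setting p M B P f) (v : P)
    (s : cn (Subgroup.zpowers (v : G))) {z : ℂ} (hz : MemLocalRing M z) :
    MemLocalRing M (eps p P f (Subgroup.zpowers (v : G)) * z *
      rep p P f (Subgroup.zpowers (v : G)) s) := by
  obtain ⟨θ, -, hrep⟩ := h.exists_rep (h.zpowers_le v)
  rw [hrep]
  refine (localRing M).mul_mem ?_ (memLocalRing_apply (Chars.isCharacter_coe θ) s)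
  rcases eps_cases (p := p) P f (Subgroup.zpowers (v : G)) with e | e <;> rw [e]
  · rwa [one_mul]
  · rw [neg_one_mul]
    exact (localRing M).neg_mem hz

/-- Scalars divisible by the order of the defect group give singular values divisible by it. -/
theorem comb_singular_local (h : Setting p M B P f) (a : IrrCharacter G → ℂ)
    (ha : ∀ v : P, v ≠ 1 → MemLocalRing M
      ((∑ χ ∈ B.toFinite.toFinset, a χ * gval p P f χ v) / (Nat.card P : ℂ)))
    {g : G} (hg : ¬ IsPRegular p g) :
    MemLocalRing M ((∑ χ ∈ B.toFinite.toFinset, a χ * (χ : G → ℂ) g) / (Nat.card P : ℂ)) := by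
  refine comb_singular_mem h (Q := fun z => MemLocalRing M (z / (Nat.card P : ℂ)))
    (by rw [zero_div]; exact (localRing M).zero_mem)
    (fun z w hz hw => by rw [add_div]; exact (localRing M).add_mem hz hw) a
    (fun v hv s _ _ => ?_) hg
  have := memLocalRing_eps_mul_rep h v s (ha v hv)
  rwa [← mul_div_assoc, div_mul_eq_mul_div] at this

/-- Scalars divisible by the order of the defect group give singular values divisible by the
centralizers. -/
theorem comb_singular_div (h : Setting p M B P f) (a : IrrCharacter G → ℂ)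
    (ha : ∀ v : P, v ≠ 1 → MemLocalRing M
      ((∑ χ ∈ B.toFinite.toFinset, a χ * gval p P f χ v) / (Nat.card P : ℂ)))
    {g : G} (hg : ¬ IsPRegular p g) :
    MemLocalRing M ((∑ χ ∈ B.toFinite.toFinset, a χ * (χ : G → ℂ) g) /
      (Nat.card (Subgroup.centralizer ({g} : Set G)) : ℂ)) := by
  refine comb_singular_mem h (Q := fun z => MemLocalRing M (z /
      (Nat.card (Subgroup.centralizer ({g} : Set G)) : ℂ)))
    (by rw [zero_div]; exact (localRing M).zero_mem)
    (fun z w hz hw => by rw [add_div]; exact (localRing M).add_mem hz hw) a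
    (fun v hv s hs hc => ?_) hg
  obtain ⟨t, rfl⟩ := hc
  rw [KleinFour.natCard_centralizer_conj]
  have hP : (Nat.card P : ℂ) ≠ 0 := Nat.cast_ne_zero.2 Nat.card_pos.ne'
  have heps : MemLocalRing M (eps p P f (Subgroup.zpowers (v : G))) := by
    rcases eps_cases (p := p) P f (Subgroup.zpowers (v : G)) with e | e <;> rw [e]
    · exact (localRing M).one_mem
    · exact (localRing M).neg_mem (localRing M).one_mem
  have := (localRing M).mul_mem ((localRing M).mul_mem heps (ha v hv))
    (memLocalRing_rep_div h hv hs)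
  refine Eq.subst (motive := fun z => MemLocalRing M z) ?_ this
  generalize ∑ χ ∈ B.toFinite.toFinset, a χ * gval p P f χ v = A
  field_simp

/-- A combination is divisible at the regular elements if it vanishes at the singular ones. -/
theorem comb_regular_div (hM : IsPModular p M) {ι : Type*} (T : Finset ι) (a : ι → ℂ)
    (χ : ι → IrrCharacter G) (ha : ∀ i ∈ T, MemLocalRing M (a i))
    (hv : ∀ g, ¬ IsPRegular p g → ∑ i ∈ T, a i * (χ i : G → ℂ) g = 0) (g : G) :
    MemLocalRing M ((∑ i ∈ T, a i * (χ i : G → ℂ) g) /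
      (Nat.card (Subgroup.centralizer ({g} : Set G)) : ℂ)) := by
  refine KleinFour.memLocalRing_div_centralizer hM (f := fun z => ∑ i ∈ T, a i * (χ i : G → ℂ) z)
    (fun x k => Finset.sum_congr rfl fun i _ => by rw [Chars.isClassFunction_coe (χ i) x k])
    hv (fun θ => ?_) g
  have e : (fun z => ∑ i ∈ T, a i * (χ i : G → ℂ) z) = ∑ i ∈ T, a i • (χ i : G → ℂ) := by
    funext z
    rw [Finset.sum_apply]
    exact Finset.sum_congr rfl fun i _ => by rw [Pi.smul_apply, smul_eq_mul]
  rw [e, Chars.classInner_sum_left]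
  refine (localRing M).sum_mem fun i hi => ?_
  rw [Chars.classInner_smul_left, Chars.classInner_irr]
  split_ifs
  · rw [mul_one]; exact ha i hi
  · rw [mul_zero]; exact (localRing M).zero_mem

end

section

variable {G : Type u} [Group G] [Fintype G] {H : Type v} [Group H] [Fintype H] {p : ℕ}
  [Fact p.Prime] {M : Ideal AlgInt} [M.IsMaximal] [CharP (kres M) p]
  {B : Set (IrrCharacter G)} {P : Subgroup G} {f : MonoidAlgebra (kres M) G}
  {c : Set (IrrCharacter H)} {P' : Subgroup H} {f' : MonoidAlgebra (kres M) H}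

/-- The criterion for a perfect isometry. -/
theorem isPerfectIsometry_of_gval (h : Setting p M B P f) (h' : Setting p M c P' f')
    (hcard : Nat.card P' = Nat.card P) {I : IrrCharacter H → IrrCharacter G}
    {ε : IrrCharacter H → ℤ} (hI : Set.BijOn I c B) (hε : ∀ η ∈ c, ε η = 1 ∨ ε η = -1)
    (h1 : ∀ v : P, v ≠ 1 → ∀ y : H, IsPRegular p y →
      ∑ η ∈ c.toFinite.toFinset, (ε η : ℂ) * gval p P f (I η) v * (η : H → ℂ) y = 0)
    (h2 : ∀ w : P', w ≠ 1 → ∀ x : G, IsPRegular p x →
      ∑ η ∈ c.toFinite.toFinset, (ε η : ℂ) * gval p P' f' η w * (I η : G → ℂ) x = 0)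
    (h3 : ∀ v : P, v ≠ 1 → ∀ w : P', w ≠ 1 → MemLocalRing M
      ((∑ η ∈ c.toFinite.toFinset, (ε η : ℂ) * gval p P f (I η) v * gval p P' f' η w) /
        (Nat.card P : ℂ))) :
    IsPerfectIsometry p M c B I ε := by
  refine ⟨hI, hε, fun x y => ?_⟩
  set T := c.toFinite.toFinset with hT
  have hTm : ∀ {η}, η ∈ T → η ∈ c := fun {η} hη => (Set.Finite.mem_toFinset _).1 hη
  set μ := signedBijectionKernel c I ε
  haveI : Nonempty (IrrCharacter H) := ⟨⟨_, Chars.isIrrCharacter_one⟩⟩
  set J := Function.invFunOn I c with hJdef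
  have hJ : ∀ η ∈ T, J (I η) = η := fun η hη => hI.injOn.leftInvOn_invFunOn (hTm hη)
  have himg : B.toFinite.toFinset = T.image I := by
    ext χ
    simp only [hT, Finset.mem_image, Set.Finite.mem_toFinset, ← hI.image_eq, Set.mem_image]
  have hre : ∀ (a F : IrrCharacter G → ℂ), ∑ χ ∈ B.toFinite.toFinset, a χ * F χ =
      ∑ η ∈ T, a (I η) * F (I η) := fun a F => by
    rw [himg, Finset.sum_image fun η hη η' hη' e => hI.injOn (hTm hη) (hTm hη') e]
  have hμ : ∀ x y, μ x y = ∑ η ∈ T, (ε η : ℂ) * (I η : G → ℂ) x * (η : H → ℂ) y :=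
    fun x y => finsum_mem_eq_finite_toFinset_sum _ _
  have hμG : ∀ x y, μ x y = ∑ χ ∈ B.toFinite.toFinset,
      ((ε (J χ) : ℂ) * (J χ : H → ℂ) y) * (χ : G → ℂ) x := fun x y => by
    rw [hre, hμ]
    exact Finset.sum_congr rfl fun η hη => by rw [hJ η hη]; ring
  have hμH : ∀ x y, μ x y = ∑ η ∈ T, ((ε η : ℂ) * (I η : G → ℂ) x) * (η : H → ℂ) y := hμ
  have hεm : ∀ η ∈ T, MemLocalRing M (ε η : ℂ) := fun η hη => by
    rcases hε η (hTm hη) with e | e <;> rw [e] <;> push_cast
    · exact (localRing M).one_mem
    · exact (localRing M).neg_mem (localRing M).one_mem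
  have hsumG : ∀ (v : P) y, ∑ χ ∈ B.toFinite.toFinset,
      ((ε (J χ) : ℂ) * (J χ : H → ℂ) y) * gval p P f χ v =
      ∑ η ∈ T, (ε η : ℂ) * gval p P f (I η) v * (η : H → ℂ) y := fun v y => by
    rw [hre]
    exact Finset.sum_congr rfl fun η hη => by rw [hJ η hη]; ring
  have hsumH : ∀ (w : P') x, ∑ η ∈ T, ((ε η : ℂ) * (I η : G → ℂ) x) * gval p P' f' η w =
      ∑ η ∈ T, (ε η : ℂ) * gval p P' f' η w * (I η : G → ℂ) x := fun w x =>
    Finset.sum_congr rfl fun η _ => by ring
  have zG : ∀ x y, ¬ IsPRegular p x → IsPRegular p y → μ x y = 0 := fun x y hx hy => by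
    rw [hμG]
    exact comb_singular_eq_zero h _ (fun v hv => by rw [hsumG]; exact h1 v hv y hy) hx
  have zH : ∀ x y, IsPRegular p x → ¬ IsPRegular p y → μ x y = 0 := fun x y hx hy => by
    rw [hμH]
    exact comb_singular_eq_zero h' _ (fun w hw => by rw [hsumH]; exact h2 w hw x hx) hy
  refine ⟨?_, ?_, ?_⟩
  · by_cases hy : IsPRegular p y
    · simp only [hμG]
      refine comb_regular_div h.hM _ _ (fun χ => χ) (fun χ hχ => ?_)
        (fun z hz => by rw [← hμG]; exact zG z y hz hy) x
      rw [himg, Finset.mem_image] at hχ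
      obtain ⟨η, hη, rfl⟩ := hχ
      rw [hJ η hη]
      exact (localRing M).mul_mem (hεm η hη) (memLocalRing_apply (Chars.isCharacter_coe η) y)
    · by_cases hx : IsPRegular p x
      · rw [zH x y hx hy, zero_div]; exact (localRing M).zero_mem
      rw [hμG]
      refine comb_singular_div h _ (fun v hv => ?_) hx
      rw [hsumG]
      refine Eq.subst (motive := fun z => MemLocalRing M (z / (Nat.card P : ℂ)))
        (Finset.sum_congr rfl fun η _ => rfl) ?_
      rw [← hcard]
      refine comb_singular_local h' (fun η => (ε η : ℂ) * gval p P f (I η) v) (fun w hw => ?_) hy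
      rw [hcard]
      exact h3 v hv w hw
  · by_cases hx : IsPRegular p x
    · simp only [hμH]
      refine comb_regular_div h.hM _ _ (fun η => η) (fun η hη => ?_)
        (fun z hz => by rw [← hμH]; exact zH x z hx hz) y
      exact (localRing M).mul_mem (hεm η hη) (memLocalRing_apply (Chars.isCharacter_coe _) x)
    · by_cases hy : IsPRegular p y
      · rw [zG x y hx hy, zero_div]; exact (localRing M).zero_mem
      rw [hμH]
      refine comb_singular_div h' _ (fun w hw => ?_) hy
      rw [hsumH, hcard]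
      have := comb_singular_local h (fun χ => (ε (J χ) : ℂ) * gval p P' f' (J χ) w) (fun v hv => ?_) hx
      · convert this using 2
        rw [hre]
        exact Finset.sum_congr rfl fun η hη => by rw [hJ η hη]
      · convert h3 v hv w hw using 2
        rw [hre]
        exact Finset.sum_congr rfl fun η hη => by rw [hJ η hη]; ring
  · by_cases hx : IsPRegular p x
    · exact (em (IsPRegular p y)).imp (iff_of_true hx) (zH x y hx)
    · by_cases hy : IsPRegular p y
      · exact Or.inr (zG x y hx hy)
      · exact Or.inl (iff_of_false hx hy)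

end

end CfsgLib.Blocks.Cyclic
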