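import Cfsg.Agent.Blocks.Cyclic.Main
import Cfsg.Agent.Blocks.Cyclic.Perfect

/-!
# Perfect isometries between blocks with cyclic defect groups

Two blocks whose defect groups are isomorphic compatibly with the inertial automorphisms are
perfectly isometric, with one sign on the exceptional characters.
-/

set_option autoImplicit false
open scoped MonoidAlgebra ComplexConjugate Classical
open Cfsg CfsgLib CfsgLib.Blocks CfsgLib.Blocks.HeightZero CfsgLib.Blocks.Contrib
open CfsgLib.Blocks.AbelianFree CfsgLib.Blocks.AbelianFrobenius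

namespace CfsgLib.Blocks.Cyclic

universe u v

section orbSum

variable {P : Type u} [Group P] [Finite P]

/-- The sum of the conjugates of a linear character of an orbit. -/
noncomputable def orbSum (A : Subgroup (MulAut P)) (i : Orb A) (v : P) : ℂ :=
  ∑ᶠ a : A, (Orb.rep A i ((a : MulAut P) v) : ℂ)

theorem orbSum_eq (A : Subgroup (MulAut P)) [Fintype A] (i : Orb A) (v : P) :
    orbSum A i v = ∑ a : A, (Orb.rep A i ((a : MulAut P) v) : ℂ) :=
  finsum_eq_sum_of_fintype _

variable [IsMulCommutative P] [Fintype (P →* ℂˣ)] {A : Subgroup (MulAut P)}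

/-- All orbits together give the regular character without the trivial one. -/
theorem sum_rep (hA : FPF A) [Fintype (Orb A)] [Fintype A] (z : P) :
    ∑ x : Orb A × A, (Orb.rep A x.1 ((x.2 : MulAut P) z) : ℂ) =
      (if z = 1 then (Nat.card P : ℂ) else 0) - 1 := by
  haveI := Fintype.ofFinite P
  calc ∑ x : Orb A × A, (Orb.rep A x.1 ((x.2 : MulAut P) z) : ℂ)
      = ∑ ψ : {ψ : P →* ℂˣ // ψ ≠ 1}, (ψ.1 z : ℂ) :=
        Fintype.sum_bijective _ (twist_rep_bijective hA) _ _ fun x => rfl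
    _ = ∑ ψ : P →* ℂˣ, (ψ z : ℂ) - 1 := by
        rw [← Finset.sum_subtype (Finset.univ.erase 1) (fun ψ => by simp)
          (fun ψ : P →* ℂˣ => (ψ z : ℂ)), Finset.sum_erase_eq_sub (Finset.mem_univ _)]
        simp
    _ = _ := by
        split_ifs with hz
        · subst hz
          simp [card_linChar, Nat.card_eq_fintype_card]
        · rw [sum_apply_eq_zero hz]

theorem sum_orbSum (hA : FPF A) [Fintype (Orb A)] {v : P} (hv : v ≠ 1) :
    ∑ i : Orb A, orbSum A i v = -1 := by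
  haveI := Fintype.ofFinite A
  simp only [orbSum_eq]
  rw [← Fintype.sum_prod_type', sum_rep hA, if_neg hv, zero_sub]

/-- The products of the orbit sums. -/
theorem sum_orbSum_mul (hA : FPF A) [Fintype (Orb A)] (u v : P) :
    ∃ n : ℕ, ∑ i : Orb A, orbSum A i u * orbSum A i v =
      (Nat.card P : ℂ) * n - (Nat.card A : ℂ) := by
  haveI := Fintype.ofFinite A
  refine ⟨(Finset.univ.filter fun b : A => u * (b : MulAut P) v = 1).card, ?_⟩
  simp only [orbSum_eq, Finset.sum_mul_sum]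
  calc ∑ i : Orb A, ∑ a : A, ∑ b : A,
        (Orb.rep A i ((a : MulAut P) u) : ℂ) * (Orb.rep A i ((b : MulAut P) v) : ℂ)
      = ∑ i : Orb A, ∑ a : A, ∑ b : A,
          (Orb.rep A i ((a : MulAut P) (u * (b : MulAut P) v)) : ℂ) := by
        refine Finset.sum_congr rfl fun i _ => Finset.sum_congr rfl fun a _ => ?_
        refine (Fintype.sum_equiv (Equiv.mulLeft a) _ _ fun b => ?_).symm
        simp [Equiv.coe_mulLeft, map_mul, MulAut.mul_apply]
    _ = ∑ b : A, ∑ x : Orb A × A,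
          (Orb.rep A x.1 ((x.2 : MulAut P) (u * (b : MulAut P) v)) : ℂ) := by
        simp only [Fintype.sum_prod_type]
        exact (Finset.sum_congr rfl fun i _ => Finset.sum_comm).trans Finset.sum_comm
    _ = _ := by
        simp only [sum_rep hA, Finset.sum_sub_distrib, Finset.sum_ite, Finset.sum_const_zero,
          add_zero, Finset.sum_const, nsmul_eq_mul, Finset.card_univ, Nat.card_eq_fintype_card,
          mul_one]
        ring

end orbSum

/-- An isomorphism carrying one group of automorphisms to the other matches the orbits. -/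
theorem exists_orb_match {P : Type u} [Group P] [Finite P] [IsMulCommutative P] {P' : Type v}
    [Group P'] [Finite P'] [IsMulCommutative P'] {A : Subgroup (MulAut P)}
    {A' : Subgroup (MulAut P')} (φ : P' ≃* P)
    (hφ : ∀ a, a ∈ A' ↔ MulAut.congr φ a ∈ A) :
    ∃ π : Orb A' → Orb A, Function.Bijective π ∧
      ∀ i (w : P'), orbSum A (π i) (φ w) = orbSum A' i w := by
  haveI := Fintype.ofFinite A
  haveI := Fintype.ofFinite A'
  let push : (P' →* ℂˣ) → (P →* ℂˣ) := fun ψ => ψ.comp φ.symm.toMonoidHom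
  have hne : ∀ ψ : P' →* ℂˣ, ψ ≠ 1 → push ψ ≠ 1 := fun ψ h e => h <| MonoidHom.ext fun w => by
    simpa [push] using DFunLike.congr_fun e (φ w)
  refine ⟨fun i => Quotient.mk (orbSetoid A) ⟨push (Orb.rep A' i), hne _ (Orb.rep_ne_one A' i)⟩,
    ⟨fun i i' h => ?_, fun j => ?_⟩, fun i w => ?_⟩
  · obtain ⟨a, ha, h'⟩ := Quotient.exact h
    set b := (MulAut.congr φ).symm a with hb
    have hbA : b ∈ A' := (hφ b).2 (by rw [hb, MulEquiv.apply_symm_apply]; exact ha)
    refine Orb.eq_of_twist hbA (MonoidHom.ext fun w => ?_)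
    have := DFunLike.congr_fun h' (φ w)
    simp only [push, twist_apply, MonoidHom.coe_comp, Function.comp_apply, MulEquiv.coe_toMonoidHom,
      MulEquiv.symm_apply_apply] at this
    rw [← this, twist_apply, hb]
    rfl
  · set ψ : P' →* ℂˣ := (Orb.rep A j).comp φ.toMonoidHom with hψ
    have hψ1 : ψ ≠ 1 := fun e => Orb.rep_ne_one A j <| MonoidHom.ext fun v => by
      simpa [hψ] using DFunLike.congr_fun e (φ.symm v)
    obtain ⟨i, b, hb, hbe⟩ := Orb.exists_twist_rep A' hψ1
    refine ⟨i, ?_⟩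
    show Quotient.mk _ _ = j
    conv_rhs => rw [← Quotient.out_eq j]
    refine Quotient.sound (s := orbSetoid A) ⟨MulAut.congr φ b, (hφ b).1 hb, MonoidHom.ext fun v => ?_⟩
    have := DFunLike.congr_fun hbe (φ.symm v)
    simp only [hψ, twist_apply, MonoidHom.coe_comp, Function.comp_apply, MulEquiv.coe_toMonoidHom,
      MulEquiv.apply_symm_apply] at this
    show Orb.rep A' i (φ.symm (φ (b (φ.symm v)))) = _
    rw [φ.symm_apply_apply, this]
    rfl
  · obtain ⟨a, ha, hae⟩ := Quotient.mk_out (s := orbSetoid A)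
      (⟨push (Orb.rep A' i), hne _ (Orb.rep_ne_one A' i)⟩ : {ψ : P →* ℂˣ // ψ ≠ 1})
    rw [orbSum_eq, orbSum_eq]
    let e : A' ≃ A := (MulAut.congr φ).toEquiv.subtypeEquiv hφ
    refine (Fintype.sum_equiv (e.trans (Equiv.mulLeft ⟨a, ha⟩)) _ _ fun b => ?_).symm
    have := DFunLike.congr_fun hae (φ ((b : MulAut P') w))
    simp only [push, twist_apply, MonoidHom.coe_comp, Function.comp_apply, MulEquiv.coe_toMonoidHom,
      MulEquiv.symm_apply_apply] at this
    rw [← this]
    show _ = (Orb.rep A _ (a (φ ((b : MulAut P') (φ.symm (φ w))))) : ℂ)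
    rw [φ.symm_apply_apply]
    rfl

variable {G : Type u} [Group G] [Fintype G] {p : ℕ} [Fact p.Prime] {M : Ideal AlgInt} [M.IsMaximal]
  [CharP (kres M) p] {B : Set (IrrCharacter G)} {P : Subgroup G} {f : MonoidAlgebra (kres M) G}

/-- Nonexceptional characters, and the exceptional ones labelled by the orbits. -/
structure IsNormalForm (p : ℕ) (B : Set (IrrCharacter G)) (P : Subgroup G)
    (f : MonoidAlgebra (kres M) G) (X : Finset (IrrCharacter G)) (r : IrrCharacter G → ℤ) (δ : ℤ)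
    (ζ : Orb (aut P f) → IrrCharacter G) : Prop where
  inj : Function.Injective ζ
  notMem : ∀ i, ζ i ∉ X
  mem_iff : ∀ χ, χ ∈ B ↔ χ ∈ X ∨ χ ∈ Set.range ζ
  card_X : X.card = Nat.card (aut P f)
  sign : ∀ χ ∈ X, r χ = 1 ∨ r χ = -1
  sign₀ : δ = 1 ∨ δ = -1
  gval_X : ∀ χ ∈ X, ∀ v : P, v ≠ 1 → gval p P f χ v = -(r χ : ℂ)
  gval_exc : ∀ i, ∀ v : P, v ≠ 1 → gval p P f (ζ i) v = (δ : ℂ) * orbSum (aut P f) i v
  reg_sum : ∀ i, ∀ g : G, IsPRegular p g →
    (δ : ℂ) * (ζ i : G → ℂ) g + ∑ χ ∈ X, (r χ : ℂ) * (χ : G → ℂ) g = 0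

/-- A row concentrated on one orbit gives the orbit sum. -/
theorem gval_of_single (h : Setting p M B P f) {χ : IrrCharacter G} {δ : ℤ}
    {j : Orb (aut P f)}
    (hr : ∀ i, xrow p P f χ (Orb.rep (aut P f) i) = if i = j then δ else 0) {v : P} (hv : v ≠ 1) :
    gval p P f χ v = (δ : ℂ) * orbSum (aut P f) j v := by
  haveI := h.isMulComm
  haveI := h.finite_linChar
  haveI := Fintype.ofFinite (P →* ℂˣ)
  haveI := h.finite_orb
  haveI := Fintype.ofFinite (Orb (aut P f))
  haveI := Fintype.ofFinite (aut P f)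
  rw [h.gval_eq_sum_xrow χ hv, ← Finset.sum_erase (a := (1 : P →* ℂˣ)) Finset.univ
      (by rw [h.xrow_one, Int.cast_zero, zero_mul]),
    Finset.sum_subtype (p := fun ψ : P →* ℂˣ => ψ ≠ 1) (Finset.univ.erase 1) (fun ψ => by simp),
    ← Fintype.sum_bijective _ (twist_rep_bijective h.fpf)
      (fun x => (xrow p P f χ (twist (x.2 : MulAut P) (Orb.rep (aut P f) x.1)) : ℂ) *
        (Orb.rep (aut P f) x.1 ((x.2 : MulAut P) v) : ℂ)) _ fun x => rfl,
    orbSum_eq, Finset.mul_sum, Fintype.sum_prod_type, Finset.sum_eq_single j]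
  · exact Finset.sum_congr rfl fun a _ => by rw [h.xrow_twist a.2, hr, if_pos rfl]
  · intro i _ hi
    exact Finset.sum_eq_zero fun a _ => by rw [h.xrow_twist a.2, hr, if_neg hi, Int.cast_zero, zero_mul]
  · exact fun hj => absurd (Finset.mem_univ j) hj

/-- The normal form exists when the rank is the inertial index. -/
theorem exists_normalForm (h : Setting p M B P f) (hP : P ≠ ⊥)
    (hl : blockRank p B = Nat.card (aut P f)) : ∃ X r δ ζ, IsNormalForm p B P f X r δ ζ := by
  haveI := h.isMulComm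
  haveI := h.finite_orb
  obtain ⟨e, he⟩ : ∃ e, e = Nat.card (aut P f) := ⟨_, rfl⟩
  obtain ⟨m, hm⟩ : ∃ m, m = Nat.card (Orb (aut P f)) := ⟨_, rfl⟩
  have hk : Nat.card B = e + m := by rw [h.natCard_eq_rank_add, hl, he, hm]
  have hme := h.card_orb
  have hBcard : B.toFinite.toFinset.card = e + m := by
    rw [← hk, Nat.card_coe_set_eq, Set.ncard_eq_toFinset_card B B.toFinite]
  have hm0 : m ≠ 0 := by
    intro h0
    rw [← hm, h0, zero_mul, zero_add] at hme
    exact hP (Subgroup.eq_bot_of_card_eq _ hme.symm)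
  rcases Nat.lt_or_ge m 2 with hm1 | hm2
  · haveI : Subsingleton (Orb (aut P f)) := Finite.card_le_one_iff_subsingleton.1 (by omega)
    obtain ⟨⟨i⟩⟩ := (Nat.card_pos_iff.1 (show 0 < Nat.card (Orb (aut P f)) by omega))
    set T := B.toFinite.toFinset with hT
    set r : IrrCharacter G → ℤ := fun χ => xrow p P f χ (Orb.rep (aut P f) i) with hr
    have hne : ∀ χ ∈ T, r χ ≠ 0 := fun χ hχ => by
      obtain ⟨j, hj⟩ := h.exists_xrow_ne_zero hP ((Set.Finite.mem_toFinset _).1 hχ)
      rwa [Subsingleton.elim j i] at hj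
    have hsq : ∑ χ ∈ T, r χ ^ 2 ≤ (T.card : ℤ) + 2 := by
      simp only [sq, hr, hT, h.sum_xrow_rep, if_true]
      rw [← he, hBcard]
      push_cast
      omega
    have hsign : ∀ χ ∈ T, r χ = 1 ∨ r χ = -1 := fun χ hχ =>
      sq_eq_one_iff.1 (sq_eq_one_of_sum_le hne hsq χ hχ)
    obtain ⟨ψ, hψ⟩ : T.Nonempty := Finset.card_pos.1 (by omega)
    refine ⟨T.erase ψ, r, r ψ, fun _ => ψ, fun a b _ => Subsingleton.elim a b,
      fun _ => Finset.notMem_erase _ _, fun χ => ?_, ?_,
      fun χ hχ => hsign χ (Finset.mem_of_mem_erase hχ), hsign ψ hψ,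
      fun χ hχ v hv => gval_of_const h (fun j => by rw [Subsingleton.elim j i]) hv,
      fun j v hv => gval_of_single h (fun k => by
        rw [if_pos (Subsingleton.elim k j), Subsingleton.elim k i]) hv, fun j g hg => ?_⟩
    · rw [← Set.Finite.mem_toFinset B.toFinite, ← hT, Finset.mem_erase, Set.mem_range]
      constructor
      · intro hχ
        by_cases hc : χ = ψ
        · exact Or.inr ⟨i, hc.symm⟩
        · exact Or.inl ⟨hc, hχ⟩
      · rintro (⟨-, hχ⟩ | ⟨-, rfl⟩)
        · exact hχ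
        · exact hψ
    · rw [Finset.card_erase_of_mem hψ, hBcard]; omega
    · rw [Finset.add_sum_erase T (fun χ => (r χ : ℂ) * (χ : G → ℂ) g) hψ]
      exact h.sum_apply_mul_xrow hg _
  · obtain ⟨δ, s, r, ζ, hF⟩ := h.exists_family (hm ▸ hm2)
    set T := B.toFinite.toFinset.filter (fun χ => χ ∉ Set.range ζ) with hTdef
    have hTc : T.card = e := by
      have := h.natCard_eq_of_family hF
      rw [← hTdef, hk, ← hm] at this
      omega
    have hTB : ∀ {χ}, χ ∈ T ↔ χ ∈ B ∧ χ ∉ Set.range ζ := fun {χ} => by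
      rw [hTdef, Finset.mem_filter, Set.Finite.mem_toFinset]
    have hne : ∀ χ ∈ T, r χ ≠ 0 := fun χ hχ => hF.ne_zero χ (hTB.1 hχ).1 (hTB.1 hχ).2
    have h1 : (T.card : ℤ) ≤ ∑ χ ∈ T, r χ ^ 2 := Setting.card_le_sum_sq hne
    have hsum' := hF.sum_sq
    rw [← hTdef, ← hm, ← he] at hsum'
    have hm2' : (2 : ℤ) ≤ (m : ℤ) := by exact_mod_cast hm2
    have hs0 : s * (2 + (m : ℤ) * s) ≤ 0 := by
      rw [hsum', hTc] at h1
      nlinarith
    have hs : s = 0 ∨ (s = -1 ∧ m = 2) := by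
      have hs1 : -1 ≤ s := by
        by_contra hlt
        push Not at hlt
        have h4 : 2 + (m : ℤ) * s < 0 := by nlinarith
        nlinarith [mul_pos_of_neg_of_neg (show s < 0 by omega) h4]
      have hs2 : s ≤ 0 := by
        by_contra hlt
        push Not at hlt
        have h4 : 0 < 2 + (m : ℤ) * s := by nlinarith
        nlinarith [mul_pos hlt h4]
      rcases (show s = 0 ∨ s = -1 by omega) with rfl | rfl
      · exact Or.inl rfl
      · exact Or.inr ⟨rfl, by
          have : (m : ℤ) ≤ 2 := by nlinarith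
          omega⟩
    have hsum : ∑ χ ∈ T, r χ ^ 2 ≤ (T.card : ℤ) + 2 := by
      rw [hTc, hsum']
      rcases hs with rfl | ⟨rfl, hm'⟩
      · simp
      · rw [hm']; push_cast; linarith
    obtain ⟨τ, hτ, hrowτ⟩ : ∃ τ : Orb (aut P f) → Orb (aut P f), Function.Bijective τ ∧
        ∀ i k, (if ζ (τ i) = ζ k then δ else 0) + δ * s =
          if k = i then δ * (1 + (m : ℤ) * s) else 0 := by
      rcases hs with hs | ⟨hs, hm'⟩
      · exact ⟨id, Function.bijective_id, fun i k => by simp [hs, hF.inj.eq_iff, eq_comm]⟩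
      · obtain ⟨a, b, hab, hU⟩ := Nat.card_eq_two_iff.1 (hm.symm.trans hm')
        have hcases : ∀ k : Orb (aut P f), k = a ∨ k = b := fun k => by
          have : k ∈ ({a, b} : Set (Orb (aut P f))) := hU ▸ Set.mem_univ k
          simpa using this
        refine ⟨Equiv.swap a b, (Equiv.swap a b).bijective, fun i k => ?_⟩
        rw [hs, hm']
        push_cast
        rcases hcases i with rfl | rfl <;> rcases hcases k with rfl | rfl <;>
          simp [hF.inj.eq_iff, hab, hab.symm] <;> ring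
    have hδ : δ * (1 + (m : ℤ) * s) = 1 ∨ δ * (1 + (m : ℤ) * s) = -1 := by
      rcases hF.sign with rfl | rfl <;> rcases hs with rfl | ⟨rfl, hm'⟩ <;>
        first
          | (simp; done)
          | (rw [show (m : ℤ) = 2 by exact_mod_cast hm']; norm_num)
    refine ⟨T, r, δ * (1 + (m : ℤ) * s), ζ ∘ τ, hF.inj.comp hτ.1, fun i hi =>
      (hTB.1 hi).2 ⟨τ i, rfl⟩, fun χ => ?_, hTc.trans he, fun χ hχ =>
      sq_eq_one_iff.1 (sq_eq_one_of_sum_le hne hsum χ hχ), hδ, fun χ hχ v hv => ?_,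
      fun i v hv => ?_, fun i g hg => ?_⟩
    · rw [hTB, hτ.2.range_comp]
      constructor
      · intro hχ
        by_cases hz : χ ∈ Set.range ζ
        · exact Or.inr hz
        · exact Or.inl ⟨hχ, hz⟩
      · rintro (h' | ⟨i, rfl⟩)
        · exact h'.1
        · exact hF.mem i
    · refine gval_of_const h (fun i => ?_) hv
      rw [hF.row χ (hTB.1 hχ).1 i, if_neg fun e => (hTB.1 hχ).2 ⟨i, e.symm⟩, zero_add]
    · refine gval_of_single h (fun k => ?_) hv
      rw [Function.comp_apply, hF.row _ (hF.mem _) k, hF.exc]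
      exact hrowτ i k
    · have h2 := hF.reg_sum (τ i) g hg
      rw [← hTdef, ← hm] at h2
      rw [add_comm, Function.comp_apply]
      push_cast
      exact h2

variable {H : Type v} [Group H] [Fintype H] {c : Set (IrrCharacter H)} {P' : Subgroup H}
  {f' : MonoidAlgebra (kres M) H}

/-- The isometry between two normal forms. -/
theorem exists_perfectIsometry (h : Setting p M B P f) (h' : Setting p M c P' f')
    {X : Finset (IrrCharacter G)} {r : IrrCharacter G → ℤ} {δ : ℤ}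
    {ζ : Orb (aut P f) → IrrCharacter G} (hN : IsNormalForm p B P f X r δ ζ)
    {X' : Finset (IrrCharacter H)} {r' : IrrCharacter H → ℤ} {δ' : ℤ}
    {ζ' : Orb (aut P' f') → IrrCharacter H} (hN' : IsNormalForm p c P' f' X' r' δ' ζ')
    (φ : P' ≃* P) (hφ : ∀ a, a ∈ aut P' f' ↔ MulAut.congr φ a ∈ aut P f) :
    ∃ (I : IrrCharacter H → IrrCharacter G) (ε : IrrCharacter H → ℤ),
      IsPerfectIsometry p M c B I ε ∧ ∀ i, ε (ζ' i) = δ * δ' := by
  haveI := h.isMulComm
  haveI := h'.isMulComm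
  haveI := h.finite_linChar
  haveI := h'.finite_linChar
  haveI := Fintype.ofFinite (P →* ℂˣ)
  haveI := Fintype.ofFinite (P' →* ℂˣ)
  haveI := h.finite_orb
  haveI := h'.finite_orb
  haveI := Fintype.ofFinite (Orb (aut P f))
  haveI := Fintype.ofFinite (Orb (aut P' f'))
  obtain ⟨π, hπ, hπs⟩ := exists_orb_match φ hφ
  have hA : Nat.card (aut P' f') = Nat.card (aut P f) :=
    Nat.card_congr ((MulAut.congr φ).toEquiv.subtypeEquiv hφ)
  have hX : X'.card = X.card := by rw [hN'.card_X, hN.card_X, hA]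
  let e := Finset.equivOfCardEq hX
  haveI : Nonempty (IrrCharacter G) := ⟨⟨_, Chars.isIrrCharacter_one⟩⟩
  let I : IrrCharacter H → IrrCharacter G := fun η =>
    if hη : η ∈ X' then (e ⟨η, hη⟩ : IrrCharacter G)
    else if hη' : ∃ i, ζ' i = η then ζ (π hη'.choose) else Classical.arbitrary _
  let ε : IrrCharacter H → ℤ := fun η => if η ∈ X' then r (I η) * r' η else δ * δ'
  have hIX : ∀ η ∈ X', I η ∈ X := fun η hη => by
    simp only [I, dif_pos hη]
    exact (e ⟨η, hη⟩).2
  have hIζ : ∀ i, I (ζ' i) = ζ (π i) := fun i => by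
    have hex : ∃ j, ζ' j = ζ' i := ⟨i, rfl⟩
    simp only [I, dif_neg (hN'.notMem i), dif_pos hex]
    exact congrArg (fun j => ζ (π j)) (hN'.inj hex.choose_spec)
  have hεX : ∀ η ∈ X', ε η = r (I η) * r' η := fun η hη => if_pos hη
  have hεζ : ∀ i, ε (ζ' i) = δ * δ' := fun i => if_neg (hN'.notMem i)
  have hIinj : Set.InjOn I X' := fun a ha b hb hab => by
    simp only [Finset.mem_coe] at ha hb
    simp only [I, dif_pos ha, dif_pos hb] at hab
    exact congrArg Subtype.val (e.injective (Subtype.ext hab))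
  have hbij : Set.BijOn I c B := by
    refine ⟨fun η hη => ?_, fun a ha b hb hab => ?_, fun χ hχ => ?_⟩
    · rcases (hN'.mem_iff η).1 hη with hη | ⟨i, rfl⟩
      · exact (hN.mem_iff _).2 (Or.inl (hIX η hη))
      · exact (hN.mem_iff _).2 (Or.inr ⟨π i, (hIζ i).symm⟩)
    · rcases (hN'.mem_iff a).1 ha with ha | ⟨i, rfl⟩ <;> rcases (hN'.mem_iff b).1 hb with hb | ⟨j, rfl⟩
      · exact hIinj ha hb hab
      · exact absurd (hIζ j ▸ hab ▸ hIX a ha) (hN.notMem _)
      · exact absurd (hIζ i ▸ hab ▸ hIX b hb) (hN.notMem _)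
      · rw [hIζ, hIζ] at hab
        rw [hπ.1 (hN.inj hab)]
    · rcases (hN.mem_iff χ).1 hχ with hχ | ⟨j, rfl⟩
      · refine ⟨(e.symm ⟨χ, hχ⟩ : IrrCharacter H), (hN'.mem_iff _).2 (Or.inl (e.symm ⟨χ, hχ⟩).2), ?_⟩
        simp only [I, dif_pos (e.symm ⟨χ, hχ⟩).2]
        simp
      · obtain ⟨i, rfl⟩ := hπ.2 j
        exact ⟨ζ' i, (hN'.mem_iff _).2 (Or.inr ⟨i, rfl⟩), hIζ i⟩
  have hsign : ∀ η ∈ c, ε η = 1 ∨ ε η = -1 := fun η hη => by
    rcases (hN'.mem_iff η).1 hη with hη | ⟨i, rfl⟩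
    · rw [hεX η hη]
      rcases hN.sign _ (hIX η hη) with a | a <;> rcases hN'.sign η hη with b | b <;> rw [a, b] <;>
        decide
    · rw [hεζ]
      rcases hN.sign₀ with a | a <;> rcases hN'.sign₀ with b | b <;> rw [a, b] <;> decide
  have hsplit : ∀ F : IrrCharacter H → ℂ,
      ∑ η ∈ c.toFinite.toFinset, F η = ∑ η ∈ X', F η + ∑ i, F (ζ' i) := by
    intro F
    rw [show c.toFinite.toFinset = X' ∪ Finset.univ.image ζ' from ?_, Finset.sum_union,
      Finset.sum_image fun a _ b _ e => hN'.inj e]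
    · rw [Finset.disjoint_left]
      intro η hη hη'
      obtain ⟨i, -, rfl⟩ := Finset.mem_image.1 hη'
      exact hN'.notMem i hη
    · ext η
      simp only [Set.Finite.mem_toFinset, Finset.mem_union, Finset.mem_image, Finset.mem_univ,
        true_and, hN'.mem_iff η, Set.mem_range]
  have hsq : ∀ z : ℤ, z = 1 ∨ z = -1 → (z : ℂ) * (z : ℂ) = 1 := by
    rintro z (rfl | rfl) <;> norm_num
  have hφne : ∀ {v : P}, v ≠ 1 → φ.symm v ≠ 1 := fun {v} hv e => hv (by
    simpa using congrArg φ e)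
  refine ⟨I, ε, isPerfectIsometry_of_gval h h' (Nat.card_congr φ.toEquiv) hbij hsign ?_ ?_ ?_, hεζ⟩
  · intro v hv y hy
    rw [hsplit]
    have e1 : ∀ η ∈ X', (ε η : ℂ) * gval p P f (I η) v * (η : H → ℂ) y =
        -((r' η : ℂ) * (η : H → ℂ) y) := fun η hη => by
      rw [hεX η hη, hN.gval_X _ (hIX η hη) v hv]
      push_cast
      linear_combination (-(r' η : ℂ) * (η : H → ℂ) y) * hsq _ (hN.sign _ (hIX η hη))
    have e2 : ∀ i, (ε (ζ' i) : ℂ) * gval p P f (I (ζ' i)) v * (ζ' i : H → ℂ) y =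
        -(∑ η ∈ X', (r' η : ℂ) * (η : H → ℂ) y) * orbSum (aut P f) (π i) v := fun i => by
      rw [hεζ, hIζ, hN.gval_exc _ v hv]
      push_cast
      linear_combination (orbSum (aut P f) (π i) v * (δ' : ℂ) * (ζ' i : H → ℂ) y) * hsq _ hN.sign₀ +
        orbSum (aut P f) (π i) v * hN'.reg_sum i y hy
    rw [Finset.sum_congr rfl e1, Finset.sum_congr rfl (fun i _ => e2 i), ← Finset.mul_sum,
      hπ.sum_comp (fun j => orbSum (aut P f) j v), sum_orbSum h.fpf hv, Finset.sum_neg_distrib]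
    ring
  · intro w hw x hx
    rw [hsplit]
    set S : ℂ := ∑ χ ∈ X, (r χ : ℂ) * (χ : G → ℂ) x
    have e1 : ∀ η ∈ X', (ε η : ℂ) * gval p P' f' η w * (I η : G → ℂ) x =
        -((r (I η) : ℂ) * (I η : G → ℂ) x) := fun η hη => by
      rw [hεX η hη, hN'.gval_X η hη w hw]
      push_cast
      linear_combination (-(r (I η) : ℂ) * (I η : G → ℂ) x) * hsq _ (hN'.sign η hη)
    have e2 : ∀ i, (ε (ζ' i) : ℂ) * gval p P' f' (ζ' i) w * (I (ζ' i) : G → ℂ) x =
        -S * orbSum (aut P' f') i w := fun i => by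
      rw [hεζ, hIζ, hN'.gval_exc i w hw]
      push_cast
      linear_combination (orbSum (aut P' f') i w * (δ : ℂ) * (ζ (π i) : G → ℂ) x) * hsq _ hN'.sign₀ +
        orbSum (aut P' f') i w * hN.reg_sum (π i) x hx
    rw [Finset.sum_congr rfl e1, Finset.sum_congr rfl (fun i _ => e2 i), ← Finset.mul_sum,
      sum_orbSum h'.fpf hw, Finset.sum_neg_distrib]
    have : ∑ η ∈ X', (r (I η) : ℂ) * (I η : G → ℂ) x = S := by
      refine Finset.sum_bij (fun η _ => I η) hIX (fun a ha b hb e => hIinj ha hb e)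
        (fun χ hχ => ?_) (fun η _ => rfl)
      refine ⟨(e.symm ⟨χ, hχ⟩ : IrrCharacter H), (e.symm ⟨χ, hχ⟩).2, ?_⟩
      simp only [I, dif_pos (e.symm ⟨χ, hχ⟩).2]
      simp
    rw [this]
    ring
  · intro v hv w hw
    rw [hsplit]
    have e1 : ∀ η ∈ X', (ε η : ℂ) * gval p P f (I η) v * gval p P' f' η w = 1 := fun η hη => by
      rw [hεX η hη, hN.gval_X _ (hIX η hη) v hv, hN'.gval_X η hη w hw]
      push_cast
      linear_combination ((r' η : ℂ) * r' η) * hsq _ (hN.sign _ (hIX η hη)) +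
        hsq _ (hN'.sign η hη)
    have e2 : ∀ i, (ε (ζ' i) : ℂ) * gval p P f (I (ζ' i)) v * gval p P' f' (ζ' i) w =
        orbSum (aut P' f') i (φ.symm v) * orbSum (aut P' f') i w := fun i => by
      rw [hεζ, hIζ, hN.gval_exc _ v hv, hN'.gval_exc i w hw, ← hπs i (φ.symm v),
        MulEquiv.apply_symm_apply]
      push_cast
      linear_combination (orbSum (aut P f) (π i) v * orbSum (aut P' f') i w * (δ' * δ' : ℂ)) *
        hsq _ hN.sign₀ + (orbSum (aut P f) (π i) v * orbSum (aut P' f') i w) * hsq _ hN'.sign₀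
    obtain ⟨n, hn⟩ := sum_orbSum_mul h'.fpf (φ.symm v) w
    rw [Finset.sum_congr rfl e1, Finset.sum_congr rfl (fun i _ => e2 i), hn, Finset.sum_const,
      nsmul_eq_mul, mul_one, hN'.card_X, Nat.card_congr φ.toEquiv, add_sub_cancel,
      mul_div_cancel_left₀ _ (Nat.cast_ne_zero.2 Nat.card_pos.ne')]
    exact natCast_mem (localRing M) _

end CfsgLib.Blocks.Cyclic
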