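import Cfsg.Agent.Blocks.Cyclic.Correspondent
import Cfsg.Agent.Blocks.Defect.LocalBlocks
import Cfsg.Agent.Blocks.Defect.FirstMain
import Cfsg.Agent.Blocks.Orth.Blocks

/-!
# Characters of degree prime to `p` when `p` divides the order once
-/

set_option autoImplicit false
open scoped MonoidAlgebra ComplexConjugate Classical
open Cfsg CfsgLib CfsgLib.Blocks CfsgLib.Blocks.HeightZero CfsgLib.Blocks.Contrib

namespace CfsgLib.Blocks.Cyclic

universe u

variable {G : Type u} [Group G] [Fintype G] {p : ℕ} [Fact p.Prime] {M : Ideal AlgInt} [M.IsMaximal]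
  [CharP (kres M) p]

omit [M.IsMaximal] [CharP (kres M) p] in
/-- A `p`-group has order at most that of a Sylow subgroup. -/
theorem card_le_sylow (P : Sylow p G) {Q : Subgroup G} (hQ : IsPGroup p Q) :
    Nat.card Q ≤ Nat.card (P : Subgroup G) := by
  obtain ⟨S, hS⟩ := hQ.exists_le_sylow
  exact (Subgroup.card_le_of_le hS).trans (le_of_eq (by rw [S.card_eq_multiplicity, P.card_eq_multiplicity]))

omit [Fact p.Prime] [CharP (kres M) p] in
/-- The characters are the members of the blocks. -/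
theorem bijective_sigma_blocks (Pr : IrrCharacter G → Prop) (Ps : Set (IrrCharacter G) → Prop)
    (hPs : ∀ B, IsPBlock M B → ∀ χ ∈ B, (Pr χ ↔ Ps B)) :
    Nat.card {χ : IrrCharacter G // Pr χ} =
      Nat.card (Σ B : {B : Set (IrrCharacter G) // IsPBlock M B ∧ Ps B}, B.1) := by
  refine (Nat.card_congr (Equiv.ofBijective
    (fun x : Σ B : {B : Set (IrrCharacter G) // IsPBlock M B ∧ Ps B}, B.1 =>
      (⟨x.2.1, (hPs _ x.1.2.1 _ x.2.2).2 x.1.2.2⟩ : {χ : IrrCharacter G // Pr χ}))
    ⟨?_, fun χ => ?_⟩)).symm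
  · rintro ⟨⟨B, hB⟩, χ, hχ⟩ ⟨⟨B', hB'⟩, χ', hχ'⟩ e
    simp only [Subtype.mk.injEq] at e
    subst e
    obtain rfl : B = B' := (eq_blockOf_of_mem hB.1 hχ).trans (eq_blockOf_of_mem hB'.1 hχ').symm
    rfl
  · exact ⟨⟨⟨blockOf M (χ.1 : G → ℂ), isPBlock_blockOf M χ.1,
      (hPs _ (isPBlock_blockOf M χ.1) _ (self_mem_blockOf χ.1)).1 χ.2⟩,
      ⟨χ.1, self_mem_blockOf χ.1⟩⟩, rfl⟩

/-- The count of characters of degree prime to `p`. -/
theorem natCard_pPrimeDegree (hM : IsPModular p M) (hdiv : p ∣ Nat.card G)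
    (hsq : ¬ p ^ 2 ∣ Nat.card G) (P : Sylow p G) :
    Nat.card {χ : IrrCharacter G // ¬ p ∣ charDegree (χ : G → ℂ)} =
      Nat.card (ConjClasses (Subgroup.normalizer ((P : Subgroup G) : Set G))) := by
  have hp : p.Prime := Fact.out
  have hν : (Nat.card G).factorization p = 1 := by
    rw [hp.pow_dvd_iff_le_factorization Nat.card_pos.ne'] at hsq
    have := hp.factorization_pos_of_dvd Nat.card_pos.ne' hdiv
    omega
  set D : Subgroup G := (P : Subgroup G) with hD
  have hcard : Nat.card D = p := by rw [hD, P.card_eq_multiplicity, hν, pow_one]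
  have hDp : IsPGroup p D := P.isPGroup'
  have hD1 : D ≠ ⊥ := fun e => hp.ne_one (by rw [← hcard, e, Subgroup.card_bot])
  have hcyc : IsCyclic D := isCyclic_of_prime_card hcard
  obtain ⟨N, hN⟩ : ∃ N, N = Subgroup.normalizer (D : Set G) := ⟨_, rfl⟩
  have hDN : D ≤ N := hN ▸ Subgroup.le_normalizer
  rw [← hN, ← Chars.card_irrCharacter]
  haveI := Fintype.ofFinite N
  have hdeg : ∀ B, IsPBlock M B → ∀ χ ∈ B,
      (¬ p ∣ charDegree (χ : G → ℂ) ↔ IsDefectGroup p M B D) := by
    intro B hB χ hχ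
    constructor
    · intro hχp
      obtain ⟨E, hE⟩ := HeightZero.exists_defectGroup hM hB
      have hE' := (isDefectGroup_topEl_iff (M := M) hB E).1 hE
      have h0 : minExp p B = 0 :=
        Nat.le_zero.1 ((minExp_le hχ).trans (Nat.factorization_eq_zero_of_not_dvd hχp).le)
      have hEc : Nat.card E = p := by
        rw [Contrib.natCard_defectGroup hM hB hE, blockDefect_eq, h0, hν, Nat.sub_zero, pow_one]
      obtain ⟨S, hS⟩ := hE'.2.1.exists_le_sylow
      obtain ⟨x, hx⟩ := MulAction.exists_smul_eq G S P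
      have hES : E = (S : Subgroup G) := Subgroup.eq_of_le_of_card_ge hS (by
        rw [hEc, S.card_eq_multiplicity, hν, pow_one])
      have := HeightZero.isDefectGroup_conj hM hB hE x
      rw [show E.map (MulAut.conj x).toMonoidHom = D by rw [hES, hD, ← hx]; rfl] at this
      exact this
    · intro hBD hdvd
      have hd : blockDefect p B = 1 := Nat.pow_right_injective hp.two_le (by
        show p ^ blockDefect p B = p ^ 1
        rw [pow_one]; exact (Contrib.natCard_defectGroup hM hB hBD).symm.trans hcard)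
      have h0 : blockHeight p B (χ : G → ℂ) = 0 := by
        by_contra hh
        have := height_add_two_le_blockDefect hM hB hχ hh
        omega
      rw [blockHeight_eq_zero_iff' hχ] at h0
      have h1 := hp.factorization_pos_of_dvd (Chars.charDegree_pos χ).ne' hdvd
      rw [blockDefect_eq, hν] at hd
      omega
  rw [bijective_sigma_blocks (M := M) _ (fun B => IsDefectGroup p M B D) hdeg]
  rw [← Nat.card_congr (Equiv.subtypeUnivEquiv (p := fun _ : IrrCharacter N => True) fun _ => trivial),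
    bijective_sigma_blocks (M := M) (fun _ : IrrCharacter N => True) (fun _ => True)
      fun _ _ _ _ => Iff.rfl]
  -- the defect group of every block of the normalizer
  have hT : (⊤ : Subgroup G) ⊓ Subgroup.normalizer (D : Set G) = N := by rw [top_inf_eq, hN]
  have hbD : ∀ b, IsPBlock M b → IsDefectGroupIdem p N (subEl M N b) D := by
    intro b hb
    have he : IsBlockIdem N (subEl M N b) := isBlockIdem_subEl hb
    obtain ⟨E, hE⟩ := he.exists_defectGroup p
    have hle := he.normal_le_defectGroup hDp hDN hN.le hE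
    obtain rfl : D = E := Subgroup.eq_of_le_of_card_ge hle (card_le_sylow P hE.2.1)
    exact hE
  have S : BrSetting p ⊤ D N := hT ▸ brSetting_normalizer hDp le_top
  have hbB : ∀ b : {b : Set (IrrCharacter N) // IsPBlock M b ∧ True},
      ∃ B : {B : Set (IrrCharacter G) // IsPBlock M B ∧ IsDefectGroup p M B D},
        BrOver D (subEl M N b.1) (topEl M B.1) := by
    intro b
    obtain ⟨e, ⟨he, ho⟩, -⟩ := S.existsUnique_over (isBlockIdem_subEl b.2.1)
    obtain ⟨B, hB, rfl⟩ := exists_topEl_eq (M := M) he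
    refine ⟨⟨B, hB, (isDefectGroup_topEl_iff hB D).2 ?_⟩, ho⟩
    exact IsDefectGroupIdem.of_over (by rw [hT]; exact isBlockIdem_subEl b.2.1)
      (by rw [hT]; exact hbD _ b.2.1) he ho
  choose Φ hΦ using hbB
  have hΦi : Function.Injective Φ := by
    intro b b' h
    have h1 := IsDefectGroupIdem.over_unique (H := ⊤) (P := D)
      (by rw [hT]; exact isBlockIdem_subEl b.2.1) (by rw [hT]; exact hbD _ b.2.1)
      (by rw [hT]; exact isBlockIdem_subEl b'.2.1) (isBlockIdem_topEl (Φ b).2.1) (hΦ b) (h ▸ hΦ b')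
    exact (Subtype.ext (subEl_injective b'.2.1 b.2.1 h1)).symm
  have hΦs : Function.Surjective Φ := by
    intro B
    have hBD := (isDefectGroup_topEl_iff (M := M) B.2.1 D).1 B.2.2
    obtain ⟨c, hc, ho⟩ := S.exists_block_over (isBlockIdem_topEl B.2.1) hBD.2.2.1
    obtain ⟨b, hb, rfl⟩ := exists_subEl_eq (M := M) hc
    refine ⟨⟨b, hb, trivial⟩, Subtype.ext ?_⟩
    refine topEl_injective (M := M) (Φ ⟨b, hb, trivial⟩).2.1 B.2.1 ?_
    exact (S.existsUnique_over (isBlockIdem_subEl hb)).unique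
      ⟨isBlockIdem_topEl (Φ ⟨b, hb, trivial⟩).2.1, hΦ ⟨b, hb, trivial⟩⟩
      ⟨isBlockIdem_topEl B.2.1, ho⟩
  refine (Nat.card_congr (Equiv.sigmaCongr (Equiv.ofBijective Φ ⟨hΦi, hΦs⟩) fun b => ?_)).symm
  refine (Finite.equivFinOfCardEq (n := Nat.card b.1) rfl).trans
    (Finite.equivFinOfCardEq (n := Nat.card b.1) ?_).symm
  have hind : IsInducedBlock M N b.1 (Φ b).1 :=
    (isInducedBlock_iff_brOver hM hDp hDN (hN ▸ Subgroup.centralizer_le_normalizer _) hN.le b.2.1
      (Φ b).2.1).2 (hΦ b)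
  exact ((exists_isometry_correspondent hM (Φ b).2.1 (Φ b).2.2 hD1 hcyc le_rfl hN
    ((isDefectGroup_subgroupOf_iff hDN b.2.1).2 (hbD _ b.2.1)) hind).1).symm

end CfsgLib.Blocks.Cyclic
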