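import Cfsg.Agent.Blocks.Cyclic.Main

/-!
# Values at a defect group of prime order

A character with constant scalars takes at a generator of `P` the value given by the conjugates of
the block of the centralizer, so its degree is known modulo `p`.
-/

set_option autoImplicit false
open scoped MonoidAlgebra ComplexConjugate Classical
open Cfsg CfsgLib CfsgLib.Blocks CfsgLib.Blocks.HeightZero CfsgLib.Blocks.Contrib
open CfsgLib.Blocks.AbelianFree CfsgLib.Blocks.AbelianFrobenius

namespace CfsgLib.Blocks.Cyclic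

universe u

variable {G : Type u} [Group G] [Fintype G] {p : ℕ} [Fact p.Prime] {M : Ideal AlgInt} [M.IsMaximal]
  [CharP (kres M) p] {B : Set (IrrCharacter G)} {P : Subgroup G}
  {b : Set (IrrCharacter (Subgroup.centralizer (P : Set G)))}

/-- The block below the pair at `P` is the given one. -/
theorem bl_self_eq (h : Setting p M B P (subEl M (cn P) b)) (hb : IsPBlock M b) :
    bl p P (subEl M (cn P) b) P = b :=
  subEl_injective (M := M) (h.blk le_rfl) hb
    (PairLE.unique h.pair.1 (h.spec le_rfl).2 (PairLE.refl ⊤ P _))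

/-- The blocks of the centralizer inducing `B` are the conjugates of `b`. -/
theorem natCard_inducing (h : Setting p M B P (subEl M (cn P) b)) {u : G}
    (hu : Subgroup.zpowers u = P) (hu1 : u ≠ 1) :
    Nat.card {β : Set (IrrCharacter (cn P)) // IsInducedBlock M (cn P) β B} =
      (pairStab ⊤ P (subEl M (cn P) b)).relIndex (Subgroup.normalizer (P : Set G)) ∧
    ∀ β, IsInducedBlock M (cn P) β B →
      ∃ t ∈ Subgroup.normalizer (P : Set G), subEl M (cn P) β = conjA t (subEl M (cn P) b) := by
  have hbI : IsPBlock M (bl p P (subEl M (cn P) b) P) := h.blk le_rfl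
  have hordu : ∃ e, orderOf u = p ^ e := by
    obtain ⟨n, hn⟩ := IsPGroup.iff_card.1 h.isPGroup
    exact ⟨n, by rw [← Nat.card_zpowers, hu, hn]⟩
  have hfwd : ∀ β, IsInducedBlock M (cn P) β B →
      ∃ t ∈ Subgroup.normalizer (P : Set G), subEl M (cn P) β = conjA t (subEl M (cn P) b) := by
    subst hu
    intro β hβ
    obtain ⟨⟨⟨v, t⟩, hv, hsub⟩, -⟩ := h.exists_subsec hordu hu1 hβ
    rw [subsec, Prod.mk.injEq] at hsub
    obtain ⟨hvu, hsub⟩ := hsub
    have hS : Subgroup.zpowers (v : G) = Subgroup.zpowers u := by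
      refine Subgroup.eq_of_le_of_card_ge (h.zpowers_le v) (le_of_eq ?_)
      rw [Nat.card_zpowers, Nat.card_zpowers]
      exact (congrArg orderOf hvu).symm.trans (SemiconjBy.orderOf_eq t
        (show SemiconjBy t (v : G) (t * v * t⁻¹) by simp [SemiconjBy, mul_assoc])).symm
    refine ⟨t, mem_normalizer_of_map_conj_le ?_, ?_⟩
    · conv_lhs => rw [← hS]
      rw [MonoidHom.map_zpowers]
      exact le_of_eq (congrArg Subgroup.zpowers hvu)
    · have key : ∀ S : Subgroup G, S = Subgroup.zpowers u →
          subEl M (cn S) (bl p (Subgroup.zpowers u) (subEl M (cn (Subgroup.zpowers u)) b) S) =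
            subEl M (cn (Subgroup.zpowers u)) b := by
        rintro S rfl
        exact PairLE.unique h.pair.1 (h.spec le_rfl).2 (PairLE.refl ⊤ _ _)
      exact hsub.symm.trans (congrArg (conjA t) (key _ hS))
  refine ⟨?_, hfwd⟩
  set N := Subgroup.normalizer (P : Set G)
  letI : MulAction N (MonoidAlgebra (kres M) G) :=
    { smul := fun u a => Blocks.conjA (u : G) a
      one_smul := fun a => conjA_one_left a
      mul_smul := fun u v a => (conjA_conjA (u : G) v a).symm }
  set f := subEl M (cn P) b with hf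
  have hstab : MulAction.stabilizer N f = (pairStab ⊤ P f).subgroupOf N := by
    ext t
    rw [MulAction.mem_stabilizer_iff, Subgroup.mem_subgroupOf, mem_pairStab]
    exact ⟨fun e => ⟨⟨trivial, t.2⟩, e⟩, fun e => e.2⟩
  rw [Subgroup.relIndex, ← hstab, MulAction.index_stabilizer, ← Nat.card_coe_set_eq]
  refine Nat.card_congr (Equiv.ofBijective (fun β => ⟨subEl M (cn P) β.1, ?_⟩) ⟨?_, ?_⟩)
  · obtain ⟨t, ht, e⟩ := hfwd β.1 β.2
    exact ⟨⟨t, ht⟩, e.symm⟩
  · intro β β' e
    exact Subtype.ext (subEl_injective (M := M) β.2.1 β'.2.1 (congrArg Subtype.val e))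
  · rintro ⟨_, ⟨⟨t, ht⟩, rfl⟩⟩
    have hmap : (cn P).map (MulAut.conj t).toMonoidHom = cn P := by
      rw [map_cn, map_conj_eq_self_of_mem_normalizer ht]
    have hblk : IsPBlock M (mapBlock (conjIso _ _ t hmap) (bl p P f P)) := isPBlock_mapBlock _ hbI
    have he : subEl M (cn P) (mapBlock (conjIso _ _ t hmap) (bl p P f P)) = conjA t f := by
      rw [subEl_mapBlock_conj, PairLE.unique h.pair.1 (h.spec le_rfl).2 (PairLE.refl ⊤ P _)]
    refine ⟨⟨_, (isInducedBlock_iff_brOver h.hM h.isPGroup (h.le_cn le_rfl) le_rfl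
      (Subgroup.centralizer_le_normalizer _) hblk h.hB).2 ?_⟩, Subtype.ext he⟩
    have h1 := h.pair.conjA (isBlockIdem_topEl (M := M) h.hB).mem (x := t) trivial
    rw [map_conj_eq_self_of_mem_normalizer ht] at h1
    rw [he]
    exact h1.2

/-- The value of a character with constant scalars at a generator of a defect group of prime
order. -/
theorem apply_eq_of_const (h : Setting p M B P (subEl M (cn P) b)) (hb : IsPBlock M b)
    (hPc : Nat.card P = p) {θ : IrrCharacter (cn P)} (hθ : θ ∈ b) {χ : IrrCharacter G} (hχ : χ ∈ B)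
    {c : ℂ} (hc : ∀ v : P, v ≠ 1 → gval p P (subEl M (cn P) b) χ v = c) {u : P} (hu : u ≠ 1) :
    (χ : G → ℂ) u =
      ((pairStab ⊤ P (subEl M (cn P) b)).relIndex (Subgroup.normalizer (P : Set G)) : ℂ) *
        (eps p P (subEl M (cn P) b) P * c) * (θ : cn P → ℂ) 1 := by
  set f := subEl M (cn P) b with hf
  have hzp : ∀ v : P, v ≠ 1 → Subgroup.zpowers (v : G) = P := by
    intro v hv
    refine Subgroup.eq_of_le_of_card_ge (Subgroup.zpowers_le.2 v.2) ?_
    rw [hPc, Nat.card_zpowers, Subgroup.orderOf_coe]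
    have h1 : orderOf v ∣ p := hPc ▸ orderOf_dvd_natCard v
    rcases (Nat.dvd_prime Fact.out).1 h1 with e | e
    · exact absurd (orderOf_eq_one_iff.1 e) hv
    · rw [e]
  have hu' : (u : G) ≠ 1 := fun e => hu (Subtype.ext e)
  obtain ⟨hcount, hfwd⟩ := natCard_inducing h (hzp u hu) hu'
  have hH : cn P = Subgroup.centralizer ({(u : G)} : Set G) := by
    rw [← centralizer_zpowers_eq (u : G), hzp u hu]
  have hφ : IsClassFunction (cn P) fun s : cn P => (χ : G → ℂ) ((u : G) * (s : G)) :=
    isClassFunction_translate hH χ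
  have hsum := congrFun (HeightCenter.sum_blockPart (M := M) hφ) 1
  rw [Finset.sum_apply] at hsum
  have hval : ∀ β : Set (IrrCharacter (cn P)), IsPBlock M β →
      blockPart β (fun s : cn P => (χ : G → ℂ) ((u : G) * (s : G))) 1 =
        if IsInducedBlock M (cn P) β B then eps p P f P * c * (θ : cn P → ℂ) 1 else 0 := by
    intro β hβ
    by_cases hind : IsInducedBlock M (cn P) β B
    swap
    · rw [if_neg hind]
      exact blockPart_section_eq_zero h.hM hH (h.orderOf_coe_pow u) hβ h.hB hind hχ
        h.isPRegular_one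
    rw [if_pos hind]
    obtain ⟨t, ht, e⟩ := hfwd β hind
    have hmap : (cn P).map (MulAut.conj t).toMonoidHom = cn P := by
      rw [map_cn, map_conj_eq_self_of_mem_normalizer ht]
    have hb' : mapBlock (conjIso _ _ t hmap) (bl p P f P) = β := by
      refine subEl_injective (M := M) (isPBlock_mapBlock _ (h.blk le_rfl)) hβ ?_
      rw [subEl_mapBlock_conj, bl_self_eq h hb, e]
    rw [← hb']
    conv_lhs => rw [← map_one (conjIso (cn P) (cn P) t hmap)]
    rw [HeightCenter.blockPart_mapBlock]
    have hvP : t⁻¹ * (u : G) * t ∈ P := by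
      have h1 := (Subgroup.mem_normalizer_iff.1 (Subgroup.inv_mem _ ht) (u : G)).1 u.2
      simpa using h1
    set v : P := ⟨t⁻¹ * (u : G) * t, hvP⟩
    have hv : v ≠ 1 := fun e1 => hu' (by
      have h1 := congrArg (fun w : P => t * (w : G) * t⁻¹) e1
      simpa [v, mul_assoc] using h1)
    have hfun : (fun k => (χ : G → ℂ) ((u : G) * (conjIso (cn P) (cn P) t hmap k : G))) =
        fun k : cn P => (χ : G → ℂ) ((v : G) * (k : G)) := by
      funext k
      rw [coe_conjIso, show (u : G) * (t * (k : G) * t⁻¹) = t * ((v : G) * k) * t⁻¹ by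
        simp only [v]; group, irrCharacter_conj]
    rw [hfun]
    have hH' : cn P = Subgroup.centralizer ({(v : G)} : Set G) := by
      rw [← centralizer_zpowers_eq (v : G), hzp v hv]
    have hReg : Reg p P f P := by
      have h4 := h.reg_zpowers hv
      rwa [hzp v hv] at h4
    have h2 := h.part_eq_smul le_rfl hReg (F := (χ : G → ℂ)) (v := (v : G))
      (isClassFunction_translate hH' χ) (h.isPRegular_one (K := cn P))
    rw [part] at h2
    rw [h2, ← hReg.eq_reg θ (by rw [bl_self_eq h hb]; exact hθ) 1 h.isPRegular_one]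
    congr 1
    have h3 := hc v hv
    rw [gval, if_neg hv, hzp v hv] at h3
    rw [← h3, ← mul_assoc, eps_mul_self, one_mul]
  rw [Finset.sum_congr rfl fun β hβ => hval β (Finset.mem_filter.1 hβ).2, ← Finset.sum_filter,
    Finset.sum_const, nsmul_eq_mul, Finset.filter_filter] at hsum
  simp only [Subgroup.coe_one, mul_one] at hsum
  rw [← hsum, ← mul_assoc _ (eps p P f P) c, ← mul_assoc, ← mul_assoc]
  congr 3
  rw [← hcount, Nat.card_eq_fintype_card, Fintype.card_subtype]
  congr 2
  refine Finset.filter_congr fun β _ => ?_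
  exact ⟨fun e => e.2, fun e => ⟨e.1, e⟩⟩

/-- The degree of a character constant off the identity of `P`, modulo `p`. -/
theorem degree_modEq (hPc : Nat.card P = p) (χ : IrrCharacter G) {z : ℤ}
    (hz : ∀ u : P, u ≠ 1 → (χ : G → ℂ) u = z) :
    (charDegree (χ : G → ℂ) : ℤ) ≡ z [ZMOD p] := by
  haveI := Fintype.ofFinite P
  obtain ⟨m, hm⟩ := Chars.exists_nat_classInner'
    (Chars.isCharacter_restrict (Chars.isCharacter_coe χ) P) Chars.isCharacter_one
  have hR : (Nat.card P : ℂ) ≠ 0 := Nat.cast_ne_zero.2 Nat.card_pos.ne'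
  have h1 : ∑ r : P, (χ : G → ℂ) r = (p : ℂ) * (m : ℂ) := by
    rw [← hPc, ← show classInner (fun r : P => (χ : G → ℂ) r) 1 = (m : ℂ) from hm, classInner]
    simp only [Pi.one_apply, map_one, mul_one]
    field_simp
  rw [← Finset.add_sum_erase _ _ (Finset.mem_univ (1 : P)),
    Finset.sum_congr rfl fun u hu => hz u (Finset.ne_of_mem_erase hu), Finset.sum_const,
    Finset.card_erase_of_mem (Finset.mem_univ _), Finset.card_univ, ← Nat.card_eq_fintype_card,
    hPc, nsmul_eq_mul, Nat.cast_sub (Fact.out : p.Prime).one_le, OneMemClass.coe_one,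
    ← Chars.coe_charDegree] at h1
  have h2 : (charDegree (χ : G → ℂ) : ℤ) + ((p : ℤ) - 1) * z = (p : ℤ) * m := by
    push_cast at h1
    exact_mod_cast h1
  rw [Int.modEq_iff_dvd]
  exact ⟨z - m, by linarith⟩

end CfsgLib.Blocks.Cyclic
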